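import Cfsg.Agent.H561.RV.AutCrit
import Cfsg.Agent.H967.CopSec

/-!
# A criterion for `AutOdd` with one standard automorphism (helper261, for S4311, S3851)

`autOdd_of_sec`: `α` an automorphism of `S` of order `b` modulo inner automorphisms, `|Out S|` divides `2 ^ e b`, and the
fixed points of `α` have a section `Y` with `2 |Y| ∤ |S|` (so `|Y|` and `|S|` have the same `2`-part).
-/

set_option autoImplicit false
set_option linter.unusedSectionVars false

namespace Cfsg.Agent.H261.AO.Crit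

open Cfsg Subgroup Cfsg.Agent.H561.RV Cfsg.Agent.H967.CopSec

universe u

variable {S : Type u} [Group S] [Finite S]

/-- a Sylow `2`-subgroup in the fixed points -/
theorem exists_sylow_fixed {α : MulAut S} {Y : Type*} [Group Y] (hsec : Sec S α Y)
    (hY : ¬ 2 * Nat.card Y ∣ Nat.card S) : ∃ P : Sylow 2 S, ∀ x ∈ P, α x = x := by
  have hf : Fact (Nat.Prime 2) := ⟨Nat.prime_two⟩
  obtain ⟨Q⟩ : Nonempty (Sylow 2 ↥(Fix α)) := inferInstance
  have h1 : ¬ 2 ∣ ((Q : Subgroup ↥(Fix α)).map (Fix α).subtype).index := by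
    rw [index_map_subtype]
    intro hd
    rcases (Nat.prime_two.dvd_mul).1 hd with h | h
    · exact Q.not_dvd_index h
    · apply hY
      rw [← Subgroup.card_mul_index (Fix α), mul_comm 2]
      exact Nat.mul_dvd_mul hsec.card_dvd h
  refine ⟨(Q.isPGroup'.map (Fix α).subtype).toSylow h1, ?_⟩
  rintro x hx
  have hx' : x ∈ (Q : Subgroup ↥(Fix α)).map (Fix α).subtype := hx
  obtain ⟨y, -, rfl⟩ := hx'
  exact y.2

theorem zpow_fixed {α φ : MulAut S} (h : φ ∈ zpowers α) {x : S} (hx : α x = x) : φ x = x := by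
  have h1 : zpowers α ≤ MulAction.stabilizer (MulAut S) x := by
    rw [zpowers_le]
    exact hx
  exact h1 h

/-- **the criterion** -/
theorem autOdd_of_sec (hsol : Group.IsSolvable (Out S)) {α : MulAut S} {b e : ℕ}
    (hα : ∀ k : ℕ, α ^ k ∈ Inn S → b ∣ k) (hout : Nat.card (Out S) ∣ 2 ^ e * b) {Y : Type*} [Group Y]
    (hsec : Sec S α Y) (hY : ¬ 2 * Nat.card Y ∣ Nat.card S) : AutOdd S := by
  have hfin : Finite (MulAut S) := Finite.of_injective (fun f : MulAut S => (f : S → S)) DFunLike.coe_injective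
  obtain ⟨P₀, hP₀⟩ := exists_sylow_fixed hsec hY
  refine autOdd_of_index hsol P₀ (zpowers α) (fun φ hφ x hx => zpow_fixed hφ (hP₀ x hx)) fun r hr hd => ?_
  set mk := QuotientGroup.mk' (Inn S) with hmk
  have h1 : ((zpowers α).map mk).index = (zpowers α ⊔ Inn S).index := by
    rw [index_map, hmk, QuotientGroup.ker_mk', MonoidHom.range_eq_top.2 (QuotientGroup.mk'_surjective _),
      index_top, mul_one]
  rw [← h1, MonoidHom.map_zpowers] at hd
  have h2 : b ∣ Nat.card (zpowers (mk α)) := by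
    rw [Nat.card_zpowers]
    apply hα
    rw [← QuotientGroup.eq_one_iff]
    change mk (α ^ orderOf (mk α)) = 1
    rw [map_pow, pow_orderOf_eq_one]
  have h3 := Subgroup.card_mul_index (zpowers (mk α))
  obtain ⟨c, hc⟩ := h2
  have hb : 0 < b := by
    rcases Nat.eq_zero_or_pos b with h | h
    · subst h
      rw [zero_mul] at hc
      exact absurd hc (Nat.card_pos).ne'
    · exact h
  have h4 : b * (c * (zpowers (mk α)).index) ∣ b * 2 ^ e := by
    rw [mul_comm b (2 ^ e), ← mul_assoc, ← hc, h3]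
    exact hout
  have h5 : c * (zpowers (mk α)).index ∣ 2 ^ e := Nat.dvd_of_mul_dvd_mul_left hb h4
  have h6 : r ∣ 2 ^ e := (hd.trans (Dvd.intro_left c rfl)).trans h5
  exact (Nat.prime_dvd_prime_iff_eq hr Nat.prime_two).1 (hr.dvd_of_dvd_pow h6)

/-! ### arithmetic -/

theorem not_two_dvd {NF NE A B : ℕ} (h : NF * A = NE * B) (hB : Odd B) (hNE : 0 < NE) : ¬ 2 * NE ∣ NF := by
  intro hd
  have h1 : NE * 2 ∣ NE * B := by
    rw [← h, mul_comm NE 2]
    exact hd.mul_right A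
  have h2 := Nat.dvd_of_mul_dvd_mul_left hNE h1
  exact (Nat.not_even_iff_odd.2 hB) (even_iff_two_dvd.2 h2)

/-- `x ^ b - 1 = (x - 1) w` with `w` odd (`x`, `b` odd) -/
theorem exists_odd_sub {x b : ℕ} (hx : Odd x) (hb : Odd b) : ∃ w, Odd w ∧ x ^ b - 1 = (x - 1) * w := by
  refine ⟨∑ i ∈ Finset.range b, x ^ i, ?_, ?_⟩
  · rw [Finset.odd_sum_iff_odd_card_odd, Finset.filter_true_of_mem fun i _ => hx.pow, Finset.card_range]
    exact hb
  · have h1 : 1 ≤ x := hx.pos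
    have h2 : 1 ≤ x ^ b := Nat.one_le_pow _ _ h1
    have h3 := mul_geom_sum (x : ℤ) b
    zify [h1, h2]
    exact h3.symm

/-- `x ^ b + 1 = (x + 1) w` with `w` odd (`x`, `b` odd) -/
theorem exists_odd_add {x b : ℕ} (hx : Odd x) (hb : Odd b) : ∃ w, Odd w ∧ x ^ b + 1 = (x + 1) * w := by
  obtain ⟨w, hw⟩ := hb.nat_add_dvd_pow_add_pow x 1
  rw [one_pow] at hw
  refine ⟨w, ?_, hw⟩
  by_contra hcon
  rw [Nat.not_odd_iff_even] at hcon
  obtain ⟨v, hv⟩ := hcon.two_dvd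
  obtain ⟨c, rfl⟩ := hb
  -- `x ^ (2 c + 1) + 1 = (x + 1) - x (1 - x ^ (2 c))`
  have h1 : 2 * (x + 1) ∣ x ^ (2 * c + 1) + 1 := ⟨v, by rw [hw, hv]; ring⟩
  have h2 : (2 * (x + 1) : ℤ) ∣ (x : ℤ) ^ (2 * c) - 1 := by
    have h3 : ((x : ℤ) ^ 2 - 1) ∣ (x : ℤ) ^ (2 * c) - 1 := by
      rw [pow_mul]
      simpa using sub_dvd_pow_sub_pow ((x : ℤ) ^ 2) 1 c
    refine dvd_trans ?_ h3
    obtain ⟨y, rfl⟩ := hx
    exact ⟨(y : ℤ), by push_cast; ring⟩
  have h4 : (2 * (x + 1) : ℤ) ∣ (x : ℤ) ^ (2 * c + 1) + 1 := by exact_mod_cast h1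
  have h5 : (2 * (x + 1) : ℤ) ∣ (x : ℤ) + 1 := by
    have h6 := dvd_sub h4 (h2.mul_left (x : ℤ))
    have h8 : ((x : ℤ) ^ (2 * c + 1) + 1) - x * ((x : ℤ) ^ (2 * c) - 1) = (x : ℤ) + 1 := by ring
    rwa [h8] at h6
  have h7 := Int.le_of_dvd (by positivity) h5
  linarith

/-- products -/
theorem exists_odd_prod {q₀ b : ℕ} (hq : Odd q₀) (hb : Odd b) (m : ℕ) :
    ∃ w, Odd w ∧ ∏ i ∈ Finset.range m, ((q₀ ^ b) ^ (2 * (i + 1)) - 1) =
      (∏ i ∈ Finset.range m, (q₀ ^ (2 * (i + 1)) - 1)) * w := by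
  induction m with
  | zero => exact ⟨1, odd_one, by simp⟩
  | succ m ih =>
    obtain ⟨w, hw, h⟩ := ih
    obtain ⟨w', hw', h'⟩ := exists_odd_sub (hq.pow (n := 2 * (m + 1))) hb
    refine ⟨w * w', hw.mul hw', ?_⟩
    rw [Finset.prod_range_succ, Finset.prod_range_succ, h, ← pow_mul, mul_comm b, pow_mul, h']
    ring

end Cfsg.Agent.H261.AO.Crit
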