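import Cfsg.Agent.H261.AO.Crit
import Cfsg.Agent.H476.FieldOrth

/-!
# `AutOdd` for the odd-dimensional orthogonal groups (helper261, for S4311, S3851)
-/

set_option autoImplicit false
set_option linter.unusedSectionVars false

namespace Cfsg.Agent.H261.AO.OOdd

open Cfsg Matrix QuadraticMap Cfsg.Agent.H254 Cfsg.Agent.H967.CopMat Cfsg.Agent.H967.CopSec
open Cfsg.Agent.LieClassical.OrthTrans Cfsg.Agent.ClassicalGeometry.OrthSemi Cfsg.Agent.LieClassical.OrthSimple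
  Cfsg.Agent.H198.OrthFrame Cfsg.Agent.H198.ExtForm Cfsg.Agent.H198.Carriers Cfsg.Agent.H185.OrthCent
  Cfsg.Agent.H185.MinusField Cfsg.Agent.H24.FixOrth Cfsg.Agent.H545.LT Cfsg.Agent.H476.FieldOrth
open Cfsg.Agent.H561.RV Cfsg.Agent.H261.AO.Crit

/-- a field automorphism whose order is the odd part of the order of the group of all field automorphisms -/
theorem exists_odd_part (F : Type*) [Field F] [Finite F] :
    ∃ (τ : F ≃+* F) (v : ℕ), Odd (orderOf τ) ∧ Nat.card (F ≃+* F) = 2 ^ v * orderOf τ := by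
  have hfinA : Finite (F ≃+* F) := Finite.of_injective (fun f : F ≃+* F => (f : F → F)) DFunLike.coe_injective
  obtain ⟨ρ, hρ, -⟩ := exists_ringAut F
  obtain ⟨v, n, hn, hvn⟩ := Nat.exists_eq_two_pow_mul_odd (n := Nat.card (F ≃+* F)) Nat.card_pos.ne'
  have hτ : orderOf (ρ ^ (2 ^ v)) = n := by
    rw [orderOf_pow_of_dvd (by positivity) (by rw [hρ, hvn]; exact dvd_mul_right _ _), hρ, hvn,
      Nat.mul_div_cancel_left _ (by positivity)]
  exact ⟨ρ ^ (2 ^ v), v, by rw [hτ]; exact hn, by rw [hτ]; exact hvn⟩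

/-- powers of the field automorphism which are inner -/
theorem dvd_of_inn {ι : Type} [Fintype ι] [DecidableEq ι] {F : Type} [Field F] [Nonempty ι]
    {Q : QuadraticForm F (ι → F)} (hG : Good Q) (h : ∀ σ : F ≃+* F, H185.OrthCent.Fix σ Q) (τ : F ≃+* F) (k : ℕ)
    (hk : (Phi hG (frobG (h τ))) ^ k ∈ Inn (POmega F ⇑Q)) : orderOf τ ∣ k := by
  have h1 : (Phi hG (frobG (h τ))) ^ k = Phi hG (frobG (h (τ ^ k))) := by
    have h2 : frobG (h τ) = frobHom (⊤ : Subgroup (F ≃+* F)) (fun σ _ => h σ) ⟨τ, trivial⟩ := rfl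
    rw [h2, ← map_pow, ← map_pow]
    rfl
  rw [h1] at hk
  apply orderOf_dvd_of_pow_eq_one
  by_contra hne
  exact not_inn hG (h (τ ^ k)) hne hk

/-- **AO-OODD** -/
theorem autOdd_oOdd {F : Type} [Field F] [Fintype F] (hodd : Odd (Fintype.card F)) {m : ℕ} (hm : 3 ≤ m) :
    AutOdd (POmega F (quadFormOdd m F)) := by
  obtain ⟨r, hchar⟩ := CharP.exists F
  obtain ⟨f, hp, hf⟩ := FiniteField.card F r
  have hpf : Fact r.Prime := ⟨hp⟩
  have h20 : (2 : F) ≠ 0 := Cfsg.Agent.LieClassical.PomegaCard.odd_card_iff.1 hodd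
  have hpodd : Odd r := by
    have h1 := hodd
    rw [hf] at h1
    exact (Nat.odd_pow_iff f.pos.ne').1 h1
  have hf' : Nat.card (F ≃+* F) = f := Lib.FieldAutCard.card_ringAut f.pos hf
  have hodd' : Odd (Nat.card F) := by rw [Nat.card_eq_fintype_card]; exact hodd
  have hsimp : IsSimpleGroup (POmega F ⇑(oddQ m F)) := S0295.result hodd m hm
  have hne : Nonempty (Unit ⊕ (Fin m ⊕ Fin m)) := ⟨.inl ()⟩
  have hfin : Finite (POmega F ⇑(oddQ m F)) := inferInstance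
  have hna : ¬ IsMulCommutative (POmega F ⇑(oddQ m F)) :=
    not_comm (odd_dvd (r := r) hm hodd' (char_dvd F r) Nat.prime_two (Or.inl rfl))
      (odd_dvd (r := r) hm hodd' (char_dvd F r) Nat.prime_three (Or.inr (Or.inr (by omega))))
  have hsolv : Group.IsSolvable (Out (POmega F ⇑(oddQ m F))) :=
    isSolvable_out_of_sch (Schreier.ClassPOmega.sch_odd hm h20)
  have hG : Good (oddQ m F) := good_oddQ (by omega) h20
  obtain ⟨τ, v, hτ, hv⟩ := exists_odd_part F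
  have hout : Nat.card (Out (POmega F ⇑(oddQ m F))) ∣ 2 ^ (v + 1) * orderOf τ := by
    have h1 := (S0816.result r f f.pos hf hpodd m hm).dvd
    have h2 : Nat.card (MulAut (POmega F ⇑(oddQ m F))) ∣ 2 * f * Nat.card (POmega F ⇑(oddQ m F)) := h1
    rw [← card_out hna] at h2
    have h3 := Nat.dvd_of_mul_dvd_mul_right Nat.card_pos h2
    rw [← hf', hv] at h3
    rw [pow_succ]
    have h4 : 2 * (2 ^ v * orderOf τ) = 2 ^ v * 2 * orderOf τ := by ring
    rwa [h4] at h3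
  have hsec : Sec (POmega F ⇑(oddQ m F)) (Phi hG (frobG (fix_oddQ τ m))) (POmega (Fx τ) ⇑(oddQ m (Fx τ))) :=
    sec_orth (ext_oddQ (Fx τ).subtype m) hG (fix_oddQ τ m) (fun b => b.2)
  refine autOdd_of_sec (S := POmega F ⇑(oddQ m F)) hsolv (α := Phi hG (frobG (fix_oddQ τ m)))
    (fun k hk => dvd_of_inn hG (fun σ => fix_oddQ σ m) τ k hk) hout hsec ?_
  -- the orders
  have := Fintype.ofFinite (Fx τ)
  have hcE : Nat.card F = Nat.card (Fx τ) ^ orderOf τ := card_Fx τ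
  have hoddE : Odd (Nat.card (Fx τ)) := fx_odd hodd' τ
  have h1 := S0292.result (F := F) (Nat.card_eq_fintype_card (α := F)).symm hodd' m hm
  have h2 := S0292.result (F := Fx τ) (Nat.card_eq_fintype_card (α := Fx τ)).symm hoddE m hm
  have h1' : 2 * Nat.card (POmega F ⇑(oddQ m F)) =
      (Nat.card (Fx τ) ^ orderOf τ) ^ m ^ 2 * ∏ i ∈ Finset.range m, ((Nat.card (Fx τ) ^ orderOf τ) ^ (2 * (i + 1)) - 1) := by
    rw [← hcE]; exact h1
  have h2' : 2 * Nat.card (POmega (Fx τ) ⇑(oddQ m (Fx τ))) =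
      Nat.card (Fx τ) ^ m ^ 2 * ∏ i ∈ Finset.range m, (Nat.card (Fx τ) ^ (2 * (i + 1)) - 1) := h2
  obtain ⟨w, hw, hprod⟩ := exists_odd_prod hoddE hτ m
  rw [hprod] at h1'
  refine not_two_dvd (A := Nat.card (Fx τ) ^ m ^ 2) (B := (Nat.card (Fx τ) ^ orderOf τ) ^ m ^ 2 * w) ?_
    ((hoddE.pow.pow).mul hw) Nat.card_pos
  apply Nat.eq_of_mul_eq_mul_left (show 0 < 2 by norm_num)
  calc 2 * (Nat.card (POmega F ⇑(oddQ m F)) * Nat.card (Fx τ) ^ m ^ 2)
      = (2 * Nat.card (POmega F ⇑(oddQ m F))) * Nat.card (Fx τ) ^ m ^ 2 := by ring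
    _ = (Nat.card (Fx τ) ^ m ^ 2 * ∏ i ∈ Finset.range m, (Nat.card (Fx τ) ^ (2 * (i + 1)) - 1)) *
        ((Nat.card (Fx τ) ^ orderOf τ) ^ m ^ 2 * w) := by rw [h1']; ring
    _ = 2 * (Nat.card (POmega (Fx τ) ⇑(oddQ m (Fx τ))) * ((Nat.card (Fx τ) ^ orderOf τ) ^ m ^ 2 * w)) := by
      rw [← h2']; ring

end Cfsg.Agent.H261.AO.OOdd
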